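import Cfsg.Agent.WordLaw.PingPong
import Cfsg.Prelude.Def_Sz
import Mathlib.Algebra.CharP.Two
import Mathlib.Algebra.Polynomial.Roots
import Mathlib.FieldTheory.Finite.Basic

/-! A nontrivial word is not a law of the Suzuki groups of large rank of the field. -/

set_option autoImplicit false

namespace CfsgLib.WordLaw

open Polynomial

section
variable {R : Type*} [CommRing R] [CharP R 2]

/-- Upper root matrix of the Suzuki group with exponent `e = 2 ^ k`. -/
def szUpperMat (k : ℕ) (a : R) : Matrix (Fin 4) (Fin 4) R :=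
  !![1, 0, a, a ^ 2 ^ k; 0, 1, 0, a; 0, 0, 1, 0; 0, 0, 0, 1]

/-- Lower root matrix of the Suzuki group with exponent `e = 2 ^ k`. -/
def szLowerMat (k : ℕ) (a : R) : Matrix (Fin 4) (Fin 4) R :=
  !![1, 0, 0, 0; 0, 1, 0, 0; a, 0, 1, 0; a ^ 2 ^ k, a, 0, 1]

theorem szUpperMat_add (k : ℕ) (a b : R) : szUpperMat k (a + b) = szUpperMat k a * szUpperMat k b := by
  have : Fact (Nat.Prime 2) := ⟨Nat.prime_two⟩
  refine Matrix.ext fun i j => ?_
  fin_cases i <;> fin_cases j <;>
    simp [szUpperMat, Matrix.mul_apply, Fin.sum_univ_four, add_pow_char_pow (p := 2), add_comm]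

theorem szLowerMat_add (k : ℕ) (a b : R) : szLowerMat k (a + b) = szLowerMat k a * szLowerMat k b := by
  have : Fact (Nat.Prime 2) := ⟨Nat.prime_two⟩
  refine Matrix.ext fun i j => ?_
  fin_cases i <;> fin_cases j <;>
    simp [szLowerMat, Matrix.mul_apply, Fin.sum_univ_four, add_pow_char_pow (p := 2)]

theorem szUpperMat_zero (k : ℕ) : szUpperMat k (0 : R) = 1 := by
  refine Matrix.ext fun i j => ?_
  fin_cases i <;> fin_cases j <;> simp [szUpperMat]

theorem szLowerMat_zero (k : ℕ) : szLowerMat k (0 : R) = 1 := by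
  refine Matrix.ext fun i j => ?_
  fin_cases i <;> fin_cases j <;> simp [szLowerMat]

/-- Upper root element. -/
def szUpper (k : ℕ) (a : R) : GL (Fin 4) R :=
  ⟨szUpperMat k a, szUpperMat k a,
    by rw [← szUpperMat_add, CharTwo.add_self_eq_zero, szUpperMat_zero],
    by rw [← szUpperMat_add, CharTwo.add_self_eq_zero, szUpperMat_zero]⟩

/-- Lower root element. -/
def szLower (k : ℕ) (a : R) : GL (Fin 4) R :=
  ⟨szLowerMat k a, szLowerMat k a,
    by rw [← szLowerMat_add, CharTwo.add_self_eq_zero, szLowerMat_zero],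
    by rw [← szLowerMat_add, CharTwo.add_self_eq_zero, szLowerMat_zero]⟩

theorem szUpper_add (k : ℕ) (a b : R) : szUpper k (a + b) = szUpper k a * szUpper k b :=
  Units.ext (szUpperMat_add k a b)

theorem szLower_add (k : ℕ) (a b : R) : szLower k (a + b) = szLower k a * szLower k b :=
  Units.ext (szLowerMat_add k a b)

end

/-- Column vector action of the general linear group of degree four over polynomials. -/
@[reducible] noncomputable def vecAction4 (F : Type*) [Field F] : MulAction (GL (Fin 4) F[X]) (Fin 4 → F[X]) where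
  smul g v := (g : Matrix (Fin 4) (Fin 4) F[X]).mulVec v
  one_smul v := by
    show (((1 : GL (Fin 4) F[X]) : Matrix (Fin 4) (Fin 4) F[X])).mulVec v = v
    simp
  mul_smul g h v := by
    show (((g * h : GL (Fin 4) F[X]) : Matrix (Fin 4) (Fin 4) F[X])).mulVec v = _
    rw [Units.val_mul, ← Matrix.mulVec_mulVec]
    rfl

theorem free_entry_sz {F : Type*} [Field F] [CharP F 2] (k : ℕ) (hk : 1 ≤ k) (w : FreeGroup ℕ) (hw : w ≠ 1) :
    ((FreeGroup.lift (gen (szUpper (R := F[X]) k) (szLower k)) w : GL (Fin 4) F[X]) : Matrix (Fin 4) (Fin 4) F[X]) 3 0 ≠ 0 ∧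
    (((FreeGroup.lift (gen (szUpper (R := F[X]) k) (szLower k)) w : GL (Fin 4) F[X]) : Matrix (Fin 4) (Fin 4) F[X]) 3 0).natDegree ≤
      2 ^ k * budget w.toWord := by
  letI := vecAction4 F
  have smul_def : ∀ (g : GL (Fin 4) F[X]) (v : Fin 4 → F[X]), g • v = (g : Matrix (Fin 4) (Fin 4) F[X]).mulVec v :=
    fun _ _ => rfl
  have hU : ∀ (a : F[X]) v, szUpper k a • v = ![v 0 + (a * v 2 + a ^ 2 ^ k * v 3), v 1 + a * v 3, v 2, v 3] := by
    intro a v
    rw [smul_def]
    ext i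
    fin_cases i <;> simp [szUpper, szUpperMat, Matrix.mulVec, dotProduct, Fin.sum_univ_four, add_assoc]
  have hL : ∀ (b : F[X]) v, szLower k b • v = ![v 0, v 1, v 2 + b * v 0, v 3 + (b * v 1 + b ^ 2 ^ k * v 0)] := by
    intro a v
    rw [smul_def]
    ext i
    fin_cases i <;> simp [szLower, szLowerMat, Matrix.mulVec, dotProduct, Fin.sum_univ_four] <;> ring
  have he : 2 ≤ 2 ^ k := by
    calc 2 = 2 ^ 1 := by norm_num
      _ ≤ 2 ^ k := Nat.pow_le_pow_right (by norm_num) hk
  have hmul : ∀ (a x : F[X]), a ≠ 0 → x ≠ 0 → (a ^ 2 ^ k * x).natDegree = 2 ^ k * a.natDegree + x.natDegree :=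
    fun a x ha hx => by rw [natDegree_mul (pow_ne_zero _ ha) hx, natDegree_pow]
  have h := word_mem_top (szUpper (R := F[X]) k) (szLower k) (![1, 0, 0, 0] : Fin 4 → F[X])
    (fun D => {v | v 3 ≠ 0 ∧ (v 0).natDegree < (v 3).natDegree ∧ (v 1).natDegree < (v 3).natDegree ∧
      (v 2).natDegree < (v 3).natDegree ∧ (v 3).natDegree ≤ 2 ^ k * D})
    (fun D => {v | v 3 ≠ 0 ∧ (v 1).natDegree < (v 0).natDegree ∧ (v 2).natDegree < (v 0).natDegree ∧
      (v 3).natDegree < (v 0).natDegree ∧ (v 0).natDegree ≤ 2 ^ k * D})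
    (szUpper_add k) (szLower_add k)
    (fun a => by rw [hU]; ext i; fin_cases i <;> simp)
    (fun b hb => by
      rw [hL]
      have hb0 : b ≠ 0 := by rintro rfl; simp at hb
      have h2 : 2 * b.natDegree ≤ 2 ^ k * b.natDegree := Nat.mul_le_mul_right _ he
      simp [hb0, natDegree_pow]; omega)
    (fun D a v ha hv => by
      obtain ⟨h3, h03, h13, h23, hD⟩ := hv
      rw [hU]
      have ha0 : a ≠ 0 := by rintro rfl; simp at ha
      have hbig := hmul a (v 3) ha0 h3
      have hae : 2 * a.natDegree ≤ 2 ^ k * a.natDegree := Nat.mul_le_mul_right _ he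
      have hav2 : (a * v 2).natDegree ≤ a.natDegree + (v 2).natDegree := natDegree_mul_le
      have hav3 : (a * v 3).natDegree ≤ a.natDegree + (v 3).natDegree := natDegree_mul_le
      have hd2 : (a * v 2 + a ^ 2 ^ k * v 3).natDegree = 2 ^ k * a.natDegree + (v 3).natDegree := by
        rw [natDegree_add_eq_right_of_natDegree_lt (by omega), hbig]
      have hd : (v 0 + (a * v 2 + a ^ 2 ^ k * v 3)).natDegree = 2 ^ k * a.natDegree + (v 3).natDegree := by
        rw [natDegree_add_eq_right_of_natDegree_lt (by omega), hd2]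
      have hd1 := natDegree_add_le (v 1) (a * v 3)
      simp [h3, hd, Nat.mul_add]; omega)
    (fun D b v hb hv => by
      obtain ⟨h3, h10, h20, h30, hD⟩ := hv
      rw [hL]
      have hb0 : b ≠ 0 := by rintro rfl; simp at hb
      have hv0 : v 0 ≠ 0 := by intro h; rw [h] at h10; simp at h10
      have hbig := hmul b (v 0) hb0 hv0
      have hae : 2 * b.natDegree ≤ 2 ^ k * b.natDegree := Nat.mul_le_mul_right _ he
      have hbv1 : (b * v 1).natDegree ≤ b.natDegree + (v 1).natDegree := natDegree_mul_le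
      have hbv0 : (b * v 0).natDegree ≤ b.natDegree + (v 0).natDegree := natDegree_mul_le
      have hd2 : (b * v 1 + b ^ 2 ^ k * v 0).natDegree = 2 ^ k * b.natDegree + (v 0).natDegree := by
        rw [natDegree_add_eq_right_of_natDegree_lt (by omega), hbig]
      have hd : (v 3 + (b * v 1 + b ^ 2 ^ k * v 0)).natDegree = 2 ^ k * b.natDegree + (v 0).natDegree := by
        rw [natDegree_add_eq_right_of_natDegree_lt (by omega), hd2]
      have hne : v 3 + (b * v 1 + b ^ 2 ^ k * v 0) ≠ 0 := by intro h; rw [h, natDegree_zero] at hd; omega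
      have hd1 := natDegree_add_le (v 2) (b * v 0)
      simp [hne, hd, Nat.mul_add]; omega)
    (fun D E hDE v hv => ⟨hv.1, hv.2.1, hv.2.2.1, hv.2.2.2.1, hv.2.2.2.2.trans (Nat.mul_le_mul_left _ hDE)⟩)
    w hw
  obtain ⟨h1, _, _, h4, h5⟩ := h
  have e : ((FreeGroup.lift (gen (szUpper (R := F[X]) k) (szLower k)) w : GL (Fin 4) F[X]) • (![1, 0, 0, 0] : Fin 4 → F[X])) 3 =
      ((FreeGroup.lift (gen (szUpper (R := F[X]) k) (szLower k)) w : GL (Fin 4) F[X]) : Matrix (Fin 4) (Fin 4) F[X]) 3 0 := by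
    rw [smul_def]; simp [Matrix.mulVec, dotProduct, Fin.sum_univ_four]
  rw [e] at h1 h4
  exact ⟨h1, by omega⟩

theorem szUpperMat_mem {F : Type*} [Field F] [CharP F 2] (k : ℕ) (hk : ∀ x : F, (x ^ 2 ^ k) ^ 2 ^ k = x ^ 2) (a : F) :
    szUpper k a ∈ Cfsg.Lie.Sz F (2 ^ k) := by
  apply Subgroup.subset_closure
  refine ⟨?_, ?_⟩
  · intro u v
    simp [szUpper, szUpperMat, Cfsg.Lie.altForm4, Matrix.mulVec, dotProduct, Fin.sum_univ_four]
    linear_combination (a * u 3 * v 2 + a * u 2 * v 3 + a ^ 2 ^ k * u 3 * v 3) * CharTwo.two_eq_zero (R := F)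
  · refine Matrix.ext fun i j => ?_
    fin_cases i <;> fin_cases j <;>
      simp [szUpper, szUpperMat, Cfsg.Lie.star4, Cfsg.Lie.pairOf, hk] <;> ring_nf <;>
      simp [CharTwo.neg_eq]

theorem szLowerMat_mem {F : Type*} [Field F] [CharP F 2] (k : ℕ) (hk : ∀ x : F, (x ^ 2 ^ k) ^ 2 ^ k = x ^ 2) (a : F) :
    szLower k a ∈ Cfsg.Lie.Sz F (2 ^ k) := by
  apply Subgroup.subset_closure
  refine ⟨?_, ?_⟩
  · intro u v
    simp [szLower, szLowerMat, Cfsg.Lie.altForm4, Matrix.mulVec, dotProduct, Fin.sum_univ_four]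
    linear_combination (a * u 1 * v 0 + a * u 0 * v 1 + a ^ 2 ^ k * u 0 * v 0) * CharTwo.two_eq_zero (R := F)
  · refine Matrix.ext fun i j => ?_
    fin_cases i <;> fin_cases j <;>
      simp [szLower, szLowerMat, Cfsg.Lie.star4, Cfsg.Lie.pairOf, hk] <;> ring_nf <;>
      simp [CharTwo.neg_eq]

/-- A nontrivial word is not a law of the Suzuki groups over large fields. -/
theorem not_law_suzuki {F : Type*} [Field F] [Fintype F] (m : ℕ) (hF : Fintype.card F = 2 ^ (2 * m + 1))
    (w : FreeGroup ℕ) (hw : w ≠ 1) (hN : budget w.toWord < 2 ^ m) :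
    ∃ f : ℕ → ↥(Cfsg.Lie.Sz F (2 ^ (m + 1))), FreeGroup.lift f w ≠ 1 := by
  classical
  have : CharP F 2 := by
    have : Fact (Nat.Prime 2) := ⟨Nat.prime_two⟩
    exact charP_of_card_eq_prime_pow hF
  obtain ⟨h1, h2⟩ := free_entry_sz (F := F) (m + 1) (by omega) w hw
  obtain ⟨c, hc⟩ : ∃ c : F, eval c (((FreeGroup.lift (gen (szUpper (R := F[X]) (m + 1)) (szLower (m + 1))) w : GL (Fin 4) F[X]) :
      Matrix (Fin 4) (Fin 4) F[X]) 3 0) ≠ 0 := by
    by_contra h
    simp only [not_exists, ne_eq, not_not] at h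
    refine h1 (Polynomial.eq_zero_of_natDegree_lt_card_of_eval_eq_zero' _ Finset.univ (fun x _ => h x) ?_)
    rw [Finset.card_univ, hF]
    calc _ ≤ 2 ^ (m + 1) * budget w.toWord := h2
      _ < 2 ^ (m + 1) * 2 ^ m := Nat.mul_lt_mul_of_pos_left hN (by positivity)
      _ = 2 ^ (2 * m + 1) := by rw [← pow_add]; ring_nf
  have hk : ∀ x : F, (x ^ 2 ^ (m + 1)) ^ 2 ^ (m + 1) = x ^ 2 := by
    intro x
    rw [← pow_mul, ← pow_add, show m + 1 + (m + 1) = (2 * m + 1) + 1 by omega, pow_succ, pow_mul, ← hF,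
      FiniteField.pow_card]
  let e : GL (Fin 4) F[X] →* GL (Fin 4) F := Units.map (evalRingHom c).mapMatrix.toMonoidHom
  have heU : ∀ a, e (szUpper (m + 1) a) = szUpper (m + 1) (eval c a) := by
    intro a
    refine Units.ext (Matrix.ext fun i j => ?_)
    fin_cases i <;> fin_cases j <;> simp [e, szUpper, szUpperMat]
  have heL : ∀ a, e (szLower (m + 1) a) = szLower (m + 1) (eval c a) := by
    intro a
    refine Units.ext (Matrix.ext fun i j => ?_)
    fin_cases i <;> fin_cases j <;> simp [e, szLower, szLowerMat]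
  have hmem : ∀ i, e (gen (szUpper (m + 1)) (szLower (m + 1)) i) ∈ Cfsg.Lie.Sz F (2 ^ (m + 1)) := by
    intro i
    rw [gen, map_mul, map_mul, heU, heU, heL]
    exact mul_mem (mul_mem (szUpperMat_mem _ hk _) (szLowerMat_mem _ hk _)) (szUpperMat_mem _ hk _)
  refine ⟨fun i => ⟨_, hmem i⟩, fun h => hc ?_⟩
  have h' := congrArg (Cfsg.Lie.Sz F (2 ^ (m + 1))).subtype h
  have : (Cfsg.Lie.Sz F (2 ^ (m + 1))).subtype.comp (FreeGroup.lift fun i => ⟨_, hmem i⟩) =
      e.comp (FreeGroup.lift (gen (szUpper (m + 1)) (szLower (m + 1)))) :=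
    FreeGroup.ext_hom _ _ fun i => by simp
  rw [← MonoidHom.comp_apply, this, MonoidHom.comp_apply, map_one] at h'
  have h'' := congrArg (fun g : GL (Fin 4) F => (g : Matrix (Fin 4) (Fin 4) F) 3 0) h'
  simpa [e] using h''

end CfsgLib.WordLaw
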