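import Cfsg.Agent.WordLaw.Embed
import Mathlib.FieldTheory.Finite.GaloisField

/-! `SL_2` over the fixed field inside the unitary group of degree two. -/

set_option autoImplicit false

namespace CfsgLib.WordLaw

open Matrix

theorem exists_pow_eq_of_pow_eq_one {G : Type*} [CommGroup G] [Finite G] [IsCyclic G] {d e : ℕ}
    (hd : Nat.card G = d * e) (y : G) (hy : y ^ e = 1) : ∃ x : G, x ^ d = y := by
  obtain ⟨g, hg⟩ := IsCyclic.exists_generator (α := G)
  obtain ⟨j, rfl⟩ := mem_powers_iff_mem_zpowers.mpr (hg y)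
  have hdvd : orderOf g ∣ j * e := orderOf_dvd_of_pow_eq_one (by rw [pow_mul]; exact hy)
  rw [orderOf_eq_card_of_forall_mem_zpowers hg, hd] at hdvd
  have he : 0 < e := by
    rcases Nat.eq_zero_or_pos e with h | h
    · have := Nat.card_pos (α := G); rw [hd, h, mul_zero] at this; omega
    · exact h
  obtain ⟨k, hk⟩ := Nat.dvd_of_mul_dvd_mul_right he hdvd
  exact ⟨g ^ k, by show (g ^ k) ^ d = g ^ j; rw [← pow_mul, hk, mul_comm d k]⟩

/-- `SL_2(q)` embeds in `SU_2(q)`. -/
theorem exists_sl2_to_su2 {F : Type*} [Field F] [Fintype F] (q : ℕ) (hF : Fintype.card F = q ^ 2) :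
    ∃ (F₀ : Type) (_ : Field F₀) (_ : Fintype F₀), Fintype.card F₀ = q ∧
      ∃ φ : SpecialLinearGroup (Fin 2) F₀ →* Cfsg.SU 2 F q, Function.Injective φ := by
  classical
  obtain ⟨p, hp⟩ := CharP.exists F
  have : Fact p.Prime := ⟨CharP.char_is_prime F p⟩
  obtain ⟨j, hp', hj⟩ := FiniteField.card F p
  have hqdvd : q ∣ p ^ (j : ℕ) := by rw [← hj, hF]; exact dvd_pow_self q two_ne_zero
  obtain ⟨i, -, hqi⟩ := (Nat.dvd_prime_pow hp').mp hqdvd
  have hji : (j : ℕ) = 2 * i := by
    have h1 : p ^ (j : ℕ) = p ^ (i * 2) := by rw [← hj, hF, hqi, pow_mul]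
    have := Nat.pow_right_injective hp'.two_le h1
    omega
  have hi : i ≠ 0 := by have := j.pos; omega
  have hq2 : 2 ≤ q := by rw [hqi]; exact le_trans hp'.two_le (Nat.le_self_pow hi p)
  letI := ZMod.algebra F p
  letI : Fintype (GaloisField p i) := Fintype.ofFinite _
  have hdiv : Module.finrank (ZMod p) (GaloisField p i) ∣ Module.finrank (ZMod p) F := by
    rw [GaloisField.finrank p hi]
    have h1 := Module.natCard_eq_pow_finrank (K := ZMod p) (V := F)
    rw [Nat.card_zmod, Nat.card_eq_fintype_card, hj] at h1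
    rw [← Nat.pow_right_injective hp'.two_le h1, hji]
    exact dvd_mul_left i 2
  obtain ⟨ι'⟩ := FiniteField.nonempty_algHom_of_finrank_dvd hdiv
  let ι : GaloisField p i →+* F := ι'.toRingHom
  have hcard0 : Fintype.card (GaloisField p i) = q := by
    rw [Fintype.card_eq_nat_card, GaloisField.card p i hi, hqi]
  have hfix : ∀ x, ι x ^ q = ι x := fun x => by
    rw [← map_pow, ← hcard0, FiniteField.pow_card]
  have hunits : Nat.card Fˣ = (q + 1) * (q - 1) := by
    rw [Nat.card_units, Nat.card_eq_fintype_card, hF, ← Nat.sq_sub_sq, one_pow]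
  have hneg : ((-1 : Fˣ)) ^ (q - 1) = 1 ∧ ((-1 : Fˣ)) ^ (q + 1) = 1 := by
    rcases Nat.even_or_odd q with he | ho
    · have h2 : ringChar F = 2 := by
        rw [ringChar.eq F p]
        rw [hqi, Nat.even_pow] at he
        exact (hp'.even_iff).mp he.1
      have : (-1 : Fˣ) = 1 := Units.ext (by
        have : CharP F 2 := h2 ▸ ringChar.charP F
        simp [CharTwo.neg_eq])
      simp [this]
    · exact ⟨(Nat.Odd.sub_odd ho odd_one).neg_one_pow, (ho.add_odd odd_one).neg_one_pow⟩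
  obtain ⟨lam, hlam⟩ := exists_pow_eq_of_pow_eq_one hunits (-1) hneg.1
  obtain ⟨del, hdel⟩ := exists_pow_eq_of_pow_eq_one (by rw [hunits, mul_comm]) (-1 : Fˣ) hneg.2
  obtain ⟨ζ, hζ⟩ := IsCyclic.exists_generator (α := Fˣ)
  have hζo : orderOf ζ = (q + 1) * (q - 1) := by rw [orderOf_eq_card_of_forall_mem_zpowers hζ, hunits]
  set η : Fˣ := ζ ^ (q - 1) with hη
  have hη1 : η ^ (q + 1) = 1 := by rw [hη, ← pow_mul, mul_comm, ← hζo, pow_orderOf_eq_one]
  have hηne : η ≠ 1 := by
    rw [hη]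
    intro h
    have h1 := Nat.le_of_dvd (by omega) (orderOf_dvd_of_pow_eq_one h)
    rw [hζo] at h1
    have : 3 * (q - 1) ≤ (q + 1) * (q - 1) := Nat.mul_le_mul_right _ (by omega)
    omega
  set lam' : Fˣ := lam * η with hlam'def
  have hlam' : (lam' : F) ^ (q + 1) = -1 := by
    rw [← Units.val_pow_eq_pow_val, hlam'def, mul_pow, hlam, hη1, mul_one, Units.val_neg, Units.val_one]
  have hlamF : (lam : F) ^ (q + 1) = -1 := by
    rw [← Units.val_pow_eq_pow_val, hlam, Units.val_neg, Units.val_one]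
  have hne : (lam' : F) ≠ (lam : F) := by
    intro h
    apply hηne
    have : lam' = lam := Units.ext h
    rwa [hlam'def, mul_eq_left] at this
  let σ : F →+* F := iterateFrobenius F p i
  have hσ : ∀ x, σ x = x ^ q := fun x => by rw [hqi]; rfl
  have hσσ : ∀ x, σ (σ x) = x := fun x => by
    rw [hσ, hσ, ← pow_mul, ← sq, ← hF, FiniteField.pow_card]
  set c : F := 1 + (lam : F) * σ lam' with hc
  have hc0 : c ≠ 0 := by
    intro h
    apply hne
    have h1 : (lam : F) * σ lam' = (lam : F) * σ lam := by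
      rw [hσ lam, ← pow_succ', hlamF]
      linear_combination h
    exact σ.injective (mul_left_cancel₀ lam.ne_zero h1)
  set r : F := c * del with hr
  have hdelF : σ (del : F) = -(del : F) := by
    have hd : (del : F) ^ (q - 1) = -1 := by
      rw [← Units.val_pow_eq_pow_val, hdel, Units.val_neg, Units.val_one]
    rw [hσ, show q = (q - 1) + 1 by omega, pow_succ, hd, neg_one_mul]
  have hr0 : r ≠ 0 := mul_ne_zero hc0 del.ne_zero
  let P : GL (Fin 2) F := GeneralLinearGroup.mkOfDetNeZero !![1, r; (lam : F), r * lam'] (by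
    rw [det_fin_two_of, one_mul, mul_comm r (lam : F), ← sub_ne_zero.symm.trans Iff.rfl |>.symm]
    intro h
    apply hne
    refine mul_left_cancel₀ hr0 ?_
    linear_combination h)
  let conj : SpecialLinearGroup (Fin 2) (GaloisField p i) →* GL (Fin 2) F :=
    ((MulAut.conj P).toMonoidHom.comp SpecialLinearGroup.toGL).comp (SpecialLinearGroup.map ι)
  have hdet : ∀ g, ((conj g : GL (Fin 2) F) : Matrix (Fin 2) (Fin 2) F).det = 1 := by
    intro g
    show ((P : Matrix (Fin 2) (Fin 2) F) * (SpecialLinearGroup.map ι g : Matrix (Fin 2) (Fin 2) F) *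
      ((P⁻¹ : GL (Fin 2) F) : Matrix (Fin 2) (Fin 2) F)).det = 1
    rw [det_mul, det_mul, (SpecialLinearGroup.map ι g).2, mul_one, ← det_mul, ← Units.val_mul, mul_inv_cancel,
      Units.val_one, det_one]
  let φ₁ : SpecialLinearGroup (Fin 2) (GaloisField p i) →* SpecialLinearGroup (Fin 2) F :=
    MonoidHom.mk' (fun g => ⟨((conj g : GL (Fin 2) F) : Matrix (Fin 2) (Fin 2) F), hdet g⟩)
      (fun a b => Subtype.ext (congrArg Units.val (map_mul conj a b)))
  have hform : ∀ x y : Fin 2 → F, Cfsg.hermForm 2 F q ((P : Matrix (Fin 2) (Fin 2) F) *ᵥ x) ((P : Matrix (Fin 2) (Fin 2) F) *ᵥ y) =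
      c * σ r * (x 0 * σ (y 1) - x 1 * σ (y 0)) := by
    intro x y
    have e0 : ∀ z : Fin 2 → F, ((P : Matrix (Fin 2) (Fin 2) F) *ᵥ z) = ![z 0 + r * z 1, (lam : F) * z 0 + r * lam' * z 1] := by
      intro z
      ext k
      fin_cases k <;> simp [P, GeneralLinearGroup.mkOfDetNeZero, Matrix.mulVec, dotProduct, Fin.sum_univ_two]
    simp only [Cfsg.hermForm, Fin.sum_univ_two, e0, ← hσ]
    simp only [Matrix.cons_val_zero, Matrix.cons_val_one, map_add, map_mul]
    have hll : (lam : F) * σ lam = -1 := by rw [hσ, ← pow_succ', hlamF]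
    have hll' : (lam' : F) * σ lam' = -1 := by rw [hσ, ← pow_succ', hlam']
    have hcσ : σ c = 1 + σ (lam : F) * lam' := by rw [hc, map_add, map_mul, map_one, hσσ]
    have hrr : r * σ c = -(c * σ r) := by rw [hr, map_mul, hdelF]; ring
    linear_combination (x 0 * σ (y 0)) * hll + (r * σ r * x 1 * σ (y 1)) * hll' +
      (x 1 * σ (y 0)) * hrr - (r * x 1 * σ (y 0)) * hcσ - (σ r * x 0 * σ (y 1)) * hc
  have hpres : ∀ g, φ₁ g ∈ Cfsg.SU 2 F q := by
    intro g u v
    set u' := ((P⁻¹ : GL (Fin 2) F) : Matrix (Fin 2) (Fin 2) F) *ᵥ u with hu'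
    set v' := ((P⁻¹ : GL (Fin 2) F) : Matrix (Fin 2) (Fin 2) F) *ᵥ v with hv'
    have hu : u = (P : Matrix (Fin 2) (Fin 2) F) *ᵥ u' := by
      rw [hu', Matrix.mulVec_mulVec, mul_inv_cancel_mat, Matrix.one_mulVec]
    have hv : v = (P : Matrix (Fin 2) (Fin 2) F) *ᵥ v' := by
      rw [hv', Matrix.mulVec_mulVec, mul_inv_cancel_mat, Matrix.one_mulVec]
    show Cfsg.hermForm 2 F q (((conj g : GL (Fin 2) F) : Matrix (Fin 2) (Fin 2) F) *ᵥ u)
      (((conj g : GL (Fin 2) F) : Matrix (Fin 2) (Fin 2) F) *ᵥ v) = Cfsg.hermForm 2 F q u v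
    have hconj : ∀ z, ((conj g : GL (Fin 2) F) : Matrix (Fin 2) (Fin 2) F) *ᵥ z = (P : Matrix (Fin 2) (Fin 2) F) *ᵥ
        ((SpecialLinearGroup.map ι g : Matrix (Fin 2) (Fin 2) F) *ᵥ (((P⁻¹ : GL (Fin 2) F) : Matrix (Fin 2) (Fin 2) F) *ᵥ z)) := by
      intro z
      rw [Matrix.mulVec_mulVec, Matrix.mulVec_mulVec]
      rfl
    rw [hconj, hconj, ← hu', ← hv', hform, hu, hv, hform]
    congr 1
    have hg : ∀ a b, σ ((SpecialLinearGroup.map ι g : Matrix (Fin 2) (Fin 2) F) a b) =
        (SpecialLinearGroup.map ι g : Matrix (Fin 2) (Fin 2) F) a b := fun a b => by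
      rw [hσ]; exact hfix _
    have hd := (SpecialLinearGroup.map ι g).2
    rw [det_fin_two] at hd
    simp only [Matrix.mulVec, dotProduct, Fin.sum_univ_two, map_add, map_mul, hg]
    linear_combination (u' 0 * σ (v' 1) - u' 1 * σ (v' 0)) * hd
  refine ⟨GaloisField p i, inferInstance, inferInstance, hcard0, φ₁.codRestrict _ hpres, ?_⟩
  intro a b h
  have h1 : conj a = conj b := Units.ext (congrArg Subtype.val (congrArg Subtype.val h))
  have h2 := SpecialLinearGroup.toGL_injective ((MulAut.conj P).injective h1)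
  apply Subtype.ext
  refine Matrix.ext fun k l => ι.injective ?_
  exact congrArg (fun m : SpecialLinearGroup (Fin 2) F => (m : Matrix (Fin 2) (Fin 2) F) k l) h2

/-- Big rank or big field gives a witness in the special unitary group. -/
theorem witness_su {F : Type*} [Field F] [Fintype F] (w : FreeGroup ℕ) (hw : w ≠ 1) {N : ℕ}
    (hN : ∀ n, N ≤ n → Witness (alternatingGroup (Fin n)) w) (n q : ℕ) (hF : Fintype.card F = q ^ 2) (hn : 2 ≤ n)
    (h : N ≤ n ∨ budget w.toWord + 4 ≤ q) : Witness (Cfsg.SU n F q) w := by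
  rcases h with h | h
  · refine (hN n h).of_injective ((altMat F n).codRestrict _ (altMat_preserves F n q)) ?_
    intro a b hab
    exact altMat_injective F n (congrArg Subtype.val hab)
  · obtain ⟨F₀, _, _, hc, φ, hφ⟩ := exists_sl2_to_su2 q hF
    refine (witness_sl2 (F := F₀) w hw (by omega)).of_injective
      ((((slBlock F (Nat.add_sub_cancel' hn)).comp (Cfsg.SU 2 F q).subtype).codRestrict (Cfsg.SU n F q)
        (fun g => slBlock_preserves _ q g.1 g.2)).comp φ) ?_
    intro a b hab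
    exact hφ (Subtype.ext (slBlock_injective F _ (congrArg Subtype.val hab)))

end CfsgLib.WordLaw
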